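import Mathlib

/-! A lower bound for the degree of representations of groups with the local structure of the small
Ree groups, from the eigenspaces of the centre of a maximal unipotent subgroup. -/

set_option autoImplicit false

namespace Cfsg.Agent.Lib.ReeMinDeg

open Finset

section proj

variable {A V : Type*} [AddCommGroup A] [Fintype A] [AddCommGroup V] [Module ℂ V]

/-- the projection on the eigenspace of a character -/
noncomputable def eproj (R : A → Module.End ℂ V) (χ : AddChar A ℂ) : Module.End ℂ V :=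
  (Fintype.card A : ℂ)⁻¹ • ∑ x, χ (-x) • R x

theorem card_ne : (Fintype.card A : ℂ) ≠ 0 := by
  simp [Fintype.card_ne_zero]

variable {R : A → Module.End ℂ V} (hR : ∀ x y, R (x + y) = R x * R y)

include hR in
theorem apply_eproj (χ : AddChar A ℂ) (y : A) : R y * eproj R χ = χ y • eproj R χ := by
  rw [eproj, mul_smul_comm, smul_comm (χ y), Finset.mul_sum, Finset.smul_sum (r := χ y)]
  congr 1
  refine Fintype.sum_equiv (Equiv.addLeft y) _ _ fun x => ?_
  simp only [Equiv.coe_addLeft, smul_smul, mul_smul_comm, hR, ← AddChar.map_add_eq_mul]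
  rw [show y + -(y + x) = -x by abel]

include hR in
theorem eproj_mul (χ χ' : AddChar A ℂ) :
    eproj R χ * eproj R χ' = ((Fintype.card A : ℂ)⁻¹ * ∑ x, (χ⁻¹ * χ') x) • eproj R χ' := by
  conv_lhs => rw [eproj]
  simp only [smul_mul_assoc, Finset.sum_mul, apply_eproj hR, smul_smul, ← Finset.sum_smul,
    AddChar.mul_apply, AddChar.inv_apply]

include hR in
theorem eproj_idem (χ : AddChar A ℂ) : eproj R χ * eproj R χ = eproj R χ := by
  rw [eproj_mul hR, inv_mul_cancel]
  simp [inv_mul_cancel₀ (card_ne (A := A))]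

include hR in
theorem eproj_orth {χ χ' : AddChar A ℂ} (h : χ ≠ χ') : eproj R χ * eproj R χ' = 0 := by
  rw [eproj_mul hR, AddChar.sum_eq_zero_of_ne_one (by simpa [inv_mul_eq_one] using h), mul_zero,
    zero_smul]

theorem sum_eproj (hR0 : R 0 = 1) : ∑ χ : AddChar A ℂ, eproj R χ = 1 := by
  classical
  simp only [eproj, ← Finset.smul_sum]
  rw [Finset.sum_comm]
  simp only [← Finset.sum_smul, AddChar.sum_apply_eq_ite, neg_eq_zero, ite_smul, zero_smul,
    Finset.sum_ite_eq', Finset.mem_univ, if_true, hR0, smul_smul, inv_mul_cancel₀ (card_ne (A := A)),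
    one_smul]

theorem conj_eproj {P : Module.End ℂ V} (σ : A ≃+ A) (h : ∀ x, P * R x = R (σ x) * P)
    (χ : AddChar A ℂ) : P * eproj R χ = eproj R (χ.compAddMonoidHom σ.symm.toAddMonoidHom) * P := by
  simp only [eproj, mul_smul_comm, smul_mul_assoc, Finset.mul_sum, Finset.sum_mul, h]
  congr 1
  refine Fintype.sum_equiv σ.toEquiv _ _ fun x => ?_
  simp

end proj

section trace

variable {V : Type*} [AddCommGroup V] [Module ℂ V] [FiniteDimensional ℂ V]

theorem trace_idem {f : Module.End ℂ V} (hf : f * f = f) :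
    ∃ n : ℕ, LinearMap.trace ℂ V f = n ∧ (n = 0 → f = 0) := by
  have h := LinearMap.IsIdempotentElem.isProj_range f hf
  refine ⟨_, h.trace, fun h0 => ?_⟩
  rw [Submodule.finrank_eq_zero, LinearMap.range_eq_bot] at h0
  exact h0

omit [FiniteDimensional ℂ V] in
theorem trace_eq_of_conj {G : Type*} [Group G] (ρ : Representation ℂ G V) (g : G)
    {e e' : Module.End ℂ V} (h : ρ g * e = e' * ρ g) :
    LinearMap.trace ℂ V e = LinearMap.trace ℂ V e' := by
  have h' : e = ρ g⁻¹ * (e' * ρ g) := by
    rw [← h, ← mul_assoc, ← map_mul, inv_mul_cancel, map_one, one_mul]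
  rw [h', LinearMap.trace_mul_comm, mul_assoc, ← map_mul, mul_inv_cancel, map_one, mul_one]

end trace

variable {G K V : Type*} [Group G] [Finite G] [Field K] [Fintype K] [AddCommGroup V] [Module ℂ V]
  [FiniteDimensional ℂ V] (ρ : Representation ℂ G V)

omit [Fintype K] in
theorem mulShift_surj [Finite K] {lam : AddChar K ℂ} (hlam : lam ≠ 1) (χ : AddChar K ℂ) :
    ∃ c, AddChar.mulShift lam c = χ := by
  have := Fintype.ofFinite K
  have h := (Fintype.bijective_iff_injective_and_card (AddChar.mulShift lam)).2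
    ⟨AddChar.to_mulShift_inj_of_isPrimitive (AddChar.IsPrimitive.of_ne_one hlam), AddChar.card_eq.symm⟩
  exact h.2 χ

/-- The bound. -/
theorem min_degree [IsSimpleGroup G] (hnt : ∃ g, ρ g ≠ 1) (a : K → K → G) (ha0 : a 0 0 = 1)
    (ha : ∀ u v u' v', a u v * a u' v' = a (u + u') (v + v')) (ha1 : a 0 1 ≠ 1)
    (τ : K → G) (hτ : ∀ t u v, τ t * a u v = a u (v + t * u) * τ t)
    (η : Kˣ → G) (hη : ∀ (c : Kˣ) v, η c * a 0 v = a 0 ((c : K) * v) * η c)
    (j : G) (hj : ∀ v, j * a 0 v = a 0 (-v) * j) (h2 : (2 : K) ≠ 0)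
    (hinv : ∀ x : G, x * x = 1 → x ≠ 1 → ∃ g, g * j * g⁻¹ = x)
    (S : Subgroup G) (hS : Nat.card S = 8) (hS2 : ∀ x ∈ S, x * x = 1) (h8 : Fintype.card K % 8 = 3) :
    Fintype.card K ^ 2 - Fintype.card K + 1 ≤ Module.finrank ℂ V := by
  classical
  set tr := LinearMap.trace ℂ V with htr
  set R : K → Module.End ℂ V := fun v => ρ (a 0 v) with hRdef
  set R' : K → Module.End ℂ V := fun u => ρ (a u 0) with hR'def
  have hR : ∀ x y, R (x + y) = R x * R y := fun x y => by simp [R, ← map_mul, ha]
  have hR' : ∀ x y, R' (x + y) = R' x * R' y := fun x y => by simp [R', ← map_mul, ha]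
  have hR0 : R 0 = 1 := by simp [R, ha0]
  have hR'0 : R' 0 = 1 := by simp [R', ha0]
  have hcomm : ∀ μ lam, Commute (eproj R' μ) (eproj R lam) := fun μ lam => by
    refine Commute.smul_left (Commute.smul_right (Commute.sum_left _ _ _ fun x _ =>
      Commute.smul_left (Commute.sum_right _ _ _ fun y _ => Commute.smul_right ?_ _) _) _) _
    simp [Commute, SemiconjBy, R, R', ← map_mul, ha]
  set f : AddChar K ℂ → AddChar K ℂ → Module.End ℂ V := fun μ lam => eproj R' μ * eproj R lam
  have fidem : ∀ μ lam, f μ lam * f μ lam = f μ lam := fun μ lam => by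
    simp only [f]
    rw [mul_assoc, ← mul_assoc (eproj R lam), ← (hcomm μ lam).eq, mul_assoc (eproj R' μ) (eproj R lam),
      eproj_idem hR, ← mul_assoc, eproj_idem hR']
  choose N hN hN0 using fun μ lam => trace_idem (fidem μ lam)
  -- the conjugation by `τ t`
  have hshift : ∀ (t : K) (μ lam : AddChar K ℂ), N μ lam = N (μ * (AddChar.mulShift lam t)⁻¹) lam := by
    intro t μ lam
    have hz : ρ (τ t) * eproj R lam = eproj R lam * ρ (τ t) := by
      rw [conj_eproj (R := R) (AddEquiv.refl K) (fun v => by simp [R, ← map_mul, hτ]) lam]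
      rfl
    have key : ρ (τ t) * f μ lam = f (μ * (AddChar.mulShift lam t)⁻¹) lam * ρ (τ t) := by
      have h1 : ∀ u, ρ (τ t) * R' u = R' u * R (t * u) * ρ (τ t) := fun u => by
        simp [R, R', ← map_mul, ha, hτ]
      simp only [f]
      rw [← mul_assoc]
      conv_lhs => rw [eproj]
      conv_rhs => rw [eproj]
      simp only [mul_smul_comm, smul_mul_assoc, Finset.mul_sum, Finset.sum_mul]
      congr 1
      refine Finset.sum_congr rfl fun u _ => ?_
      rw [h1, mul_assoc _ (ρ (τ t)), hz, mul_assoc (R' u), ← mul_assoc (R (t * u)), apply_eproj hR]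
      simp only [mul_smul_comm, smul_mul_assoc, smul_smul, mul_assoc, AddChar.mul_apply,
        AddChar.inv_apply, AddChar.mulShift_apply, neg_neg]
    have := trace_eq_of_conj ρ (τ t) key
    rw [hN, hN] at this
    exact_mod_cast this
  have hconst : ∀ lam, lam ≠ 1 → ∀ μ, N μ lam = N 1 lam := by
    intro lam hlam μ
    obtain ⟨t, ht⟩ := mulShift_surj hlam μ
    rw [hshift t μ lam, ht, mul_inv_cancel]
  have htrE : ∀ lam, tr (eproj R lam) = ∑ μ, (N μ lam : ℂ) := by
    intro lam
    calc tr (eproj R lam) = tr ((∑ μ, eproj R' μ) * eproj R lam) := by rw [sum_eproj hR'0, one_mul]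
      _ = _ := by simp [Finset.sum_mul, htr, f, ← hN]
  choose M hM hM0 using fun lam => trace_idem (eproj_idem hR lam)
  have hMq : ∀ lam, lam ≠ 1 → M lam = Fintype.card K * N 1 lam := by
    intro lam hlam
    have := htrE lam
    rw [hM, Finset.sum_congr rfl (fun μ _ => by rw [hconst lam hlam μ]), Finset.sum_const,
      Finset.card_univ, AddChar.card_eq, nsmul_eq_mul] at this
    exact_mod_cast this
  -- the torus is transitive on the nontrivial characters
  have htor : ∀ lam lam', lam ≠ 1 → lam' ≠ 1 → M lam = M lam' := by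
    intro lam lam' hlam hlam'
    obtain ⟨c, rfl⟩ := mulShift_surj hlam lam'
    have hc : c ≠ 0 := fun h => hlam' (by rw [h, AddChar.mulShift_zero])
    set cu := (Units.mk0 c hc)⁻¹
    have h := conj_eproj (R := R) (P := ρ (η cu))
      { toFun := fun v => (cu : K) * v, invFun := fun v => c * v
        left_inv := fun v => by simp [cu, hc]
        right_inv := fun v => by simp [cu, hc]
        map_add' := mul_add _ }
      (fun v => by simp [R, ← map_mul, hη]) lam
    have e : ∀ χ : AddChar K ℂ, χ = AddChar.mulShift lam c → M lam = M χ := by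
      intro χ hχ
      subst hχ
      have := trace_eq_of_conj ρ (η cu) (h.trans (by rfl))
      rw [hM, hM] at this
      exact_mod_cast this
    exact e _ rfl
  have : Nontrivial (AddChar K ℂ) := Fintype.one_lt_card_iff_nontrivial.1 (by
    rw [AddChar.card_eq]; exact Fintype.one_lt_card)
  obtain ⟨l1, hl1⟩ := exists_ne (1 : AddChar K ℂ)
  set q := Fintype.card K with hq
  set n := N 1 l1
  have hk : Module.finrank ℂ V = M 1 + (q - 1) * (q * n) := by
    have h1 : tr 1 = ∑ lam, (M lam : ℂ) := by
      rw [← sum_eproj (R := R) hR0]; simp [htr, hM]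
    rw [htr, LinearMap.trace_one, ← Nat.cast_sum, Nat.cast_inj,
      ← Finset.add_sum_erase _ _ (Finset.mem_univ 1),
      Finset.sum_congr rfl (fun x hx => by rw [htor x l1 (Finset.ne_of_mem_erase hx) hl1, hMq l1 hl1]),
      Finset.sum_const, Finset.card_erase_of_mem (Finset.mem_univ _), Finset.card_univ, AddChar.card_eq,
      smul_eq_mul] at h1
    exact h1
  -- the centre is not in the kernel
  have hn : n ≠ 0 := by
    intro hn
    have hz : ∀ lam, lam ≠ 1 → eproj R lam = 0 := fun lam h => hM0 lam (by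
      rw [htor lam l1 h hl1, hMq l1 hl1, show N 1 l1 = n from rfl, hn, mul_zero])
    have he : eproj R 1 = 1 := by
      rw [← sum_eproj (R := R) hR0]
      exact (Finset.sum_eq_single 1 (fun b _ hb => hz b hb) (fun h => absurd (Finset.mem_univ _) h)).symm
    have hker : a 0 1 ∈ MonoidHom.ker ρ := by
      have := apply_eproj hR (1 : AddChar K ℂ) 1
      rwa [he, mul_one, AddChar.one_apply, one_smul] at this
    obtain ⟨g, hg⟩ := hnt
    rcases IsSimpleGroup.eq_bot_or_eq_top_of_normal (MonoidHom.ker ρ) inferInstance with h | h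
    · rw [h, Subgroup.mem_bot] at hker; exact ha1 hker
    · exact hg (MonoidHom.mem_ker.1 (h ▸ Subgroup.mem_top g : g ∈ MonoidHom.ker ρ))
  by_contra hlt
  have hq3 : 3 ≤ q := by omega
  have hsq : q ^ 2 - q = (q - 1) * q := by rw [sq, Nat.sub_one_mul]
  rw [hsq] at hlt
  have hle : (q - 1) * q * 1 ≤ (q - 1) * q * n := Nat.mul_le_mul_left _ (by omega)
  rw [← mul_assoc] at hk
  have hM1 : M 1 = 0 := by omega
  have hkq : Module.finrank ℂ V = (q - 1) * q := by omega
  -- the involution has trace zero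
  have hjt : tr (ρ j) = 0 := by
    rw [← mul_one (ρ j), ← sum_eproj (R := R) hR0, Finset.mul_sum, map_sum]
    refine Finset.sum_eq_zero fun lam _ => ?_
    by_cases hl : lam = 1
    · rw [hl, hM0 1 hM1, mul_zero, map_zero]
    have h := conj_eproj (R := R) (P := ρ j) (AddEquiv.neg K) (fun v => by simp [R, ← map_mul, hj]) lam
    set lam' := lam.compAddMonoidHom (AddEquiv.neg K).symm.toAddMonoidHom
    have hne : lam ≠ lam' := by
      intro e
      refine hl (DFunLike.ext _ _ fun v => ?_)
      have e1 : lam (v / 2) = lam (-(v / 2)) := DFunLike.congr_fun e (v / 2)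
      rw [show v = v / 2 + v / 2 by field_simp; ring, AddChar.map_add_eq_mul]
      nth_rw 1 [e1]
      rw [← AddChar.map_add_eq_mul, neg_add_cancel, AddChar.map_zero_eq_one, AddChar.one_apply]
    calc tr (ρ j * eproj R lam) = tr (ρ j * eproj R lam * eproj R lam) := by
          rw [mul_assoc, eproj_idem hR]
      _ = tr (eproj R lam' * (ρ j * eproj R lam)) := by rw [h, mul_assoc, ← h]
      _ = tr (ρ j * eproj R lam * eproj R lam') := LinearMap.trace_mul_comm ℂ _ _
      _ = 0 := by rw [mul_assoc, eproj_orth hR hne, mul_zero, map_zero]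
  -- averaging over `S`
  haveI : Fintype G := Fintype.ofFinite G
  set avg : Module.End ℂ V := (8 : ℂ)⁻¹ • ∑ x : S, ρ x with havg
  have hfix : ∀ y : S, ρ y * avg = avg := fun y => by
    rw [havg, mul_smul_comm, Finset.mul_sum]
    congr 1
    exact Fintype.sum_equiv (Equiv.mulLeft y) _ _ fun x => by simp
  have hidem : avg * avg = avg := by
    conv_lhs => arg 1; rw [havg]
    rw [smul_mul_assoc, Finset.sum_mul, Finset.sum_congr rfl (fun y _ => hfix y), Finset.sum_const,
      Finset.card_univ, ← Nat.card_eq_fintype_card, hS, ← Nat.cast_smul_eq_nsmul ℂ, smul_smul]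
    norm_num
  obtain ⟨r, hr, -⟩ := trace_idem hidem
  have h8k : (Module.finrank ℂ V : ℂ) = 8 * r := by
    rw [← hr, havg, map_smul, map_sum, Finset.sum_eq_single 1, Subgroup.coe_one, map_one,
      LinearMap.trace_one, smul_eq_mul]
    · ring
    · intro x _ hx
      obtain ⟨g, hg⟩ := hinv x (hS2 x x.2) (fun e => hx (Subtype.ext e))
      rw [← hg, ← trace_eq_of_conj ρ g (e := ρ j) (by rw [← map_mul, ← map_mul, inv_mul_cancel_right])]
      exact hjt
    · intro h; exact absurd (Finset.mem_univ _) h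
  have h8k' : Module.finrank ℂ V = 8 * r := by exact_mod_cast h8k
  obtain ⟨i, hi⟩ : ∃ i, q = 8 * i + 3 := ⟨q / 8, by omega⟩
  rw [hkq, hi, show 8 * i + 3 - 1 = 8 * i + 2 by omega,
    show (8 * i + 2) * (8 * i + 3) = 8 * (8 * i * i + 5 * i) + 6 by ring] at h8k'
  omega

end Cfsg.Agent.Lib.ReeMinDeg
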